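import Cfsg.Agent.H45.GG.Mackey
import Cfsg.Agent.H641.Gow.Rgd

/-!
# The Mackey formula for cuspidal characters of two Levi subgroups (helper45, S4884)

* `classInner_HC_HC` : `[HC_J α, HC_K β] = #{w : w carries the simple roots of K onto those of J, α = β^w}` for irreducible
  cuspidal `α`, `β`;
* `HC_eq_of_ne` : if `[HC_J α, HC_K β] ≠ 0` then `HC_J α = HC_K β`.
-/

set_option autoImplicit false
set_option linter.unusedSectionVars false

open scoped ComplexConjugate Pointwise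
open Cfsg

namespace Cfsg.Agent.H45.GG

open Cfsg.Agent.OddOrderCharacters.Clifford Cfsg.Agent.Characters Cfsg.Agent.H53.HC Cfsg.Agent.H641.Gow

open CoxeterSystem Cfsg.Agent.ChevalleyStructure.CoxeterGeom Cfsg.Agent.Tits.Roots Cfsg.Agent.Tits.Core
  Cfsg.Agent.Tits.Exchange Cfsg.Agent.Nodes.Reps Cfsg.Agent.Nodes.BNOf Cfsg.Agent.Nodes.StabComb
  Cfsg.Agent.Nodes.Bruhat Cfsg.Agent.Nodes.OppDec Cfsg.Agent.Nodes.LeviDec

variable {I W Y : Type*} [Fintype I] [DecidableEq I] [Group W] [Group Y] {M : CoxeterMatrix I}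
  {cs : CoxeterSystem M W} {A : I → I → ℤ} {h : IsCartan M A} {p : ℕ} {T : Subgroup Y} {n : I → Y}
  {X : (I → ℤ) → Subgroup Y}

/-! ### combinatorics -/

/-- `w` carries the simple roots of `K` onto those of `J` -/
def Mp (cs : CoxeterSystem M W) (h : IsCartan M A) (J K : Set I) (w : W) : Prop :=
  (∀ i ∈ K, ∃ j ∈ J, rep cs h w (sr i) = sr j) ∧ ∀ j ∈ J, ∃ i ∈ K, rep cs h w⁻¹ (sr j) = sr i

theorem Mp.inv {J K : Set I} {w : W} (hw : Mp cs h J K w) : Mp cs h K J w⁻¹ :=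
  ⟨hw.2, by rw [inv_inv]; exact hw.1⟩

theorem Mp.mul {J J' K : Set I} {v w : W} (hv : Mp cs h J J' v) (hw : Mp cs h J' K w) : Mp cs h J K (v * w) := by
  constructor
  · intro i hi
    obtain ⟨j, hj, e⟩ := hw.1 i hi
    obtain ⟨k, hk, e2⟩ := hv.1 j hj
    exact ⟨k, hk, by rw [rep_mul_apply, e, e2]⟩
  · intro i hi
    obtain ⟨j, hj, e⟩ := hv.2 i hi
    obtain ⟨k, hk, e2⟩ := hw.2 j hj
    exact ⟨k, hk, by rw [mul_inv_rev, rep_mul_apply, e, e2]⟩

theorem supp_of {J K : Set I} {w : W} (hw : ∀ i ∈ K, ∃ j ∈ J, rep cs h w (sr i) = sr j) {x : I → ℤ}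
    (hx : ∀ k, k ∉ K → x k = 0) : ∀ k, k ∉ J → rep cs h w x k = 0 := by
  intro k hk
  rw [eq_sum_sr x, map_sum, Finset.sum_apply]
  refine Finset.sum_eq_zero fun i _ => ?_
  rw [map_smul, Pi.smul_apply]
  by_cases hi : i ∈ K
  · obtain ⟨j, hj, e⟩ := hw i hi
    have hne : k ≠ j := by
      rintro rfl
      exact hk hj
    rw [e, sr_ne hne, smul_zero]
  · rw [hx i hi, zero_smul]

theorem mp_or [Finite W] {J K : Set I} {w : W} (h1 : ∀ j ∈ J, 0 ≤ rep cs h w⁻¹ (sr j))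
    (h2 : ∀ i ∈ K, 0 ≤ rep cs h w (sr i)) :
    Mp cs h J K w ∨ (∃ j ∈ J, ∀ x ∈ PosRad cs h J j, rep cs h w⁻¹ x ∈ NotJ cs h K) ∨
      ∃ i ∈ K, ∀ x ∈ PosRad cs h K i, rep cs h w x ∈ NotJ cs h J := by
  have key : ∀ (J K : Set I) (v : W), (∀ i ∈ K, 0 ≤ rep cs h v (sr i)) →
      (∀ j ∈ J, 0 ≤ rep cs h v⁻¹ (sr j)) → (∀ j ∈ J, ∀ k, k ∉ K → rep cs h v⁻¹ (sr j) k = 0) →
      ∀ j ∈ J, ∃ i ∈ K, rep cs h v⁻¹ (sr j) = sr i := by
    intro J K v ha hb hd j hj
    have h3 := ht_le_rep ha (hb j hj) (hd j hj)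
    rw [rep_apply_inv] at h3
    have h4 : ht (sr j : I → ℤ) = 1 := by
      unfold ht sr
      simp
    rw [h4] at h3
    obtain ⟨k, hk, hk0⟩ := eq_sr_of_ht ((isRoot_sr cs h j).act v⁻¹) (hb j hj) h3
    refine ⟨k, ?_, hk⟩
    by_contra hkJ
    rw [hd j hj k hkJ] at hk0
    exact lt_irrefl _ hk0
  have key2 : ∀ (J K : Set I) (v : W), (∀ j ∈ J, 0 ≤ rep cs h v (sr j)) →
      (¬ ∀ j ∈ J, ∀ k, k ∉ K → rep cs h v (sr j) k = 0) →
      ∃ j ∈ J, ∀ x ∈ PosRad cs h J j, rep cs h v x ∈ NotJ cs h K := by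
    intro J K v hv hc
    push Not at hc
    obtain ⟨i, hi, k, hk, hne⟩ := hc
    have hpos : 0 < rep cs h v (sr i) k := lt_of_le_of_ne (hv i hi k) (Ne.symm hne)
    refine ⟨i, hi, ?_⟩
    rintro x ⟨hx, hxi⟩
    refine ⟨hx.1.act _, rep_nonneg_of_supp hv hx.2.1 hx.2.2, k, hk, ?_⟩
    exact lt_of_lt_of_le (mul_pos hxi hpos) (rep_apply_ge hv hx.2.1 hx.2.2 i k)
  by_cases hc : ∀ j ∈ J, ∀ k, k ∉ K → rep cs h w⁻¹ (sr j) k = 0
  · by_cases hd : ∀ i ∈ K, ∀ k, k ∉ J → rep cs h w (sr i) k = 0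
    · left
      refine ⟨?_, key J K w h2 h1 hc⟩
      have := key K J w⁻¹ h1 (by rw [inv_inv]; exact h2) (by rw [inv_inv]; exact hd)
      rwa [inv_inv] at this
    · right; right
      exact key2 K J w h2 hd
  · right; left
    exact key2 J K w⁻¹ h1 hc

theorem mp_eq {J K : Set I} {w w' y₁ y₂ : W} (hw : Mp cs h J K w) (hw' : Mp cs h J K w') (h1 : y₁ ∈ WJ cs J)
    (h2 : y₂ ∈ WJ cs K) (he : y₁ * w' = w * y₂) : w = w' := by
  have hz : w⁻¹ * w' = w⁻¹ * (y₁⁻¹ * (w * y₂)) := by rw [← he]; group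
  have key : w⁻¹ * w' = 1 := by
    refine eq_one_of_nonneg (cs := cs) (h := h) fun i => ?_
    by_cases hi : i ∈ K
    · obtain ⟨k, hk, e⟩ := hw'.1 i hi
      obtain ⟨l, -, e2⟩ := hw.2 k hk
      rw [rep_mul_apply, e, e2]
      exact sr_nonneg l
    · refine nonneg_of_pos_apply ((isRoot_sr cs h i).act _) (k := i) ?_
      have e1 : rep cs h y₂ (sr i) = sr i + (rep cs h y₂ (sr i) - sr i) := by abel
      have ha : ∀ k, k ∉ K → (rep cs h y₂ (sr i) - sr i) k = 0 := fun k hk => by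
        rw [Pi.sub_apply, rep_WJ_apply h2 _ hk, sub_self]
      have hb : ∀ k, k ∉ J → (rep cs h y₁⁻¹ (rep cs h w (rep cs h y₂ (sr i))) -
          rep cs h w (rep cs h y₂ (sr i))) k = 0 := fun k hk => by
        rw [Pi.sub_apply, rep_WJ_apply (inv_mem h1) _ hk, sub_self]
      have e3 : rep cs h (w⁻¹ * w') (sr i) =
          rep cs h y₂ (sr i) + rep cs h w⁻¹ (rep cs h y₁⁻¹ (rep cs h w (rep cs h y₂ (sr i))) -
            rep cs h w (rep cs h y₂ (sr i))) := by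
        rw [hz, rep_mul_apply, rep_mul_apply, rep_mul_apply, map_sub, rep_inv_apply]
        abel
      rw [e3, Pi.add_apply, supp_of hw.2 hb i hi, add_zero, rep_WJ_apply h2 _ hi, sr_self]
      exact one_pos
  exact (inv_mul_eq_one.1 key)

theorem mp_length {J K : Set I} {w : W} (hw : Mp cs h J K w) {y : W} (hy : y ∈ WJ cs K) :
    cs.length (w * y) = cs.length w + cs.length y := by
  have h1 : IsMinL cs K w⁻¹ := by
    rw [isMinL_iff]
    intro i hi
    have h2 : cs.length w < cs.length (w * cs.simple i) := by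
      rw [lt_iff' cs h w i]
      obtain ⟨k, -, e⟩ := hw.1 i hi
      change 0 ≤ rep cs h w (sr i)
      rw [e]
      exact sr_nonneg k
    rw [cs.length_inv, ← cs.length_inv (cs.simple i * w⁻¹), mul_inv_rev, inv_inv, cs.inv_simple]
    exact h2
  exact (isMinL_inv_iff cs).1 h1 y hy

theorem mp_length' {J K : Set I} {w : W} (hw : Mp cs h J K w) {y : W} (hy : y ∈ WJ cs J) :
    cs.length (y * w) = cs.length y + cs.length w := by
  rw [← cs.length_inv, mul_inv_rev, mp_length hw.inv (inv_mem hy), cs.length_inv, cs.length_inv, add_comm]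

/-! ### conjugation -/

/-- `α = β^g` -/
def TwK (cs : CoxeterSystem M W) (h : IsCartan M A) (T : Subgroup Y) (X : (I → ℤ) → Subgroup Y) (J K : Set I)
    (α : ↥(LJ cs h T X J) → ℂ) (β : ↥(LJ cs h T X K) → ℂ) (g : Y) : Prop :=
  ∀ l (hl : l ∈ LJ cs h T X J) (hl' : g⁻¹ * l * g ∈ LJ cs h T X K), α ⟨l, hl⟩ = β ⟨g⁻¹ * l * g, hl'⟩

variable (R : RGD cs h p T n X)

include R

theorem cj_mem_MJ {J K : Set I} {w : W} {g : Y} (hg : Rp cs R.nsys w g)
    (hw : ∀ i ∈ K, ∃ j ∈ J, rep cs h w (sr i) = sr j) {m : Y} (hm : m ∈ MJ cs h X K) :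
    g * m * g⁻¹ ∈ MJ cs h X J := by
  have hle : MJ cs h X K ≤ (MJ cs h X J).comap (MulAut.conj g).toMonoidHom := by
    refine RGD.Sup_le fun x hx u hu => ?_
    rw [Subgroup.mem_comap]
    exact RGD.le_Sup (S := RootsJ cs h J) ⟨hx.1.act w, supp_of hw hx.2⟩ (R.conj_mem hg hx.1 hu)
  exact hle hm

theorem cj_mem_LJ' {J K : Set I} {w : W} {g : Y} (hg : Rp cs R.nsys w g) (hw : Mp cs h J K w) {l : Y}
    (hl : l ∈ LJ cs h T X K) : g * l * g⁻¹ ∈ LJ cs h T X J := by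
  obtain ⟨t, ht, m, hm, rfl⟩ := (mem_LJ_iff_mul R K).1 hl
  have e : g * (t * m) * g⁻¹ = (g * t * g⁻¹) * (g * m * g⁻¹) := by group
  rw [e]
  exact mul_mem (T_le_LJ ((Subgroup.mem_normalizer_iff.1 hg.mem_normalizer t).1 ht))
    (MJ_le_LJ J (cj_mem_MJ R hg hw.1 hm))

theorem cj_mem_LJ {J K : Set I} {w : W} {g : Y} (hg : Rp cs R.nsys w g) (hw : Mp cs h J K w) {l : Y}
    (hl : l ∈ LJ cs h T X J) : g⁻¹ * l * g ∈ LJ cs h T X K := by
  have := cj_mem_LJ' R hg.inv hw.inv hl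
  rwa [inv_inv] at this

/-- Every element is `a g b` with `a ∈ P_J`, `b ∈ P_K` and `g` over an element minimal in its double coset. -/
theorem exists_min [Finite W] (hG : GG cs h T X = ⊤) (J K : Set I) (x : Y) :
    ∃ a ∈ PJ cs h T X J, ∃ b ∈ PJ cs h T X K, ∃ w g, Rp cs R.nsys w g ∧ x = a * g * b ∧
      (∀ j ∈ J, 0 ≤ rep cs h w⁻¹ (sr j)) ∧ ∀ i ∈ K, 0 ≤ rep cs h w (sr i) := by
  classical
  have hex : ∃ m : ℕ, ∃ w, cs.length w = m ∧ ∃ a ∈ PJ cs h T X J, ∃ b ∈ PJ cs h T X K, ∃ g,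
      Rp cs R.nsys w g ∧ x = a * g * b := by
    obtain ⟨w, b₁, hb₁, k, hk, b₂, hb₂, e⟩ := (mem_GG R).1 (show x ∈ GG cs h T X by rw [hG]; exact Subgroup.mem_top x)
    exact ⟨_, w, rfl, b₁, B_le_PJ hb₁, b₂, B_le_PJ hb₂, k, hk, e⟩
  obtain ⟨w, hw, a, ha, b, hb, g, hg, e⟩ := Nat.find_spec hex
  have hmin := fun m hm => Nat.find_min hex (m := m) hm
  have hmin' : ∀ v, (∃ a ∈ PJ cs h T X J, ∃ b ∈ PJ cs h T X K, ∃ g, Rp cs R.nsys v g ∧ x = a * g * b) →
      cs.length w ≤ cs.length v := by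
    intro v hv
    rw [hw]
    by_contra hcon
    exact hmin _ (not_le.1 hcon) ⟨v, rfl, hv⟩
  refine ⟨a, ha, b, hb, w, g, hg, e, ?_, ?_⟩
  · intro i hi
    refine nonneg_of_lt cs h w⁻¹ i ?_
    rw [cs.length_inv, ← cs.length_inv (w⁻¹ * cs.simple i), mul_inv_rev, inv_inv, cs.inv_simple]
    have h1 := hmin' (cs.simple i * w) ⟨a * (n i)⁻¹, mul_mem ha (inv_mem (LJ_le_PJ (n_mem_LJ R hi))), b, hb,
      n i * g, (rp_simple cs R.nsys i).mul hg, by rw [e]; group⟩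
    have h2 := cs.length_simple_mul w i
    omega
  · intro i hi
    refine nonneg_of_lt cs h w i ?_
    have h1 := hmin' (w * cs.simple i) ⟨a, ha, (n i)⁻¹ * b, mul_mem (inv_mem (LJ_le_PJ (n_mem_LJ R hi))) hb,
      g * n i, hg.mul (rp_simple cs R.nsys i), by rw [e]; group⟩
    have h2 := cs.length_mul_simple w i
    omega

theorem cj_mem_VJ_of [Finite W] [Finite Y] {J K : Set I} {w : W} {g : Y} (hg : Rp cs R.nsys w g)
    (hw : Mp cs h J K w) {v : Y} (hv : v ∈ VJ cs h X J) (hP : g⁻¹ * v * g ∈ PJ cs h T X K) :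
    g⁻¹ * v * g ∈ VJ cs h X K := by
  have key : ∀ v ∈ VJ cs h X J, g⁻¹ * v * g ∈ PJ cs h T X K → g⁻¹ * v * g ∈ RGD.Sup X (RGD.Pos cs h) := by
    intro v hv hP
    obtain ⟨y, hy, hc⟩ := (mem_PJ_iff_cell R).1 hP
    have h1 := Cell.mul_of_length R (mp_length hw hy) (cell_of_rp hg) hc
    have h2 : Cell R.nsys cs h X w (v * g) := (cell_of_rp hg).mul_left (RGD.U_le_B (VJ_le_U J hv))
    have e : g * (g⁻¹ * v * g) = v * g := by group
    rw [e] at h1
    have h3 : y = 1 := by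
      have := Cell.unique R h1 h2
      rwa [mul_eq_left] at this
    rw [h3] at hc
    have h4 := hc.mem_of_one
    have h5 : ∃ k : ℕ, v ^ p ^ k = 1 := by
      obtain ⟨k, hk⟩ := (R.isPGroup_Upos) ⟨v, VJ_le_U J hv⟩
      exact ⟨k, congrArg Subtype.val hk⟩
    obtain ⟨k, hk⟩ := h5
    refine R.mem_U_of_mem_B h4 (k := k) ?_
    have e2 : g⁻¹ * v * g = g⁻¹ * v * g⁻¹⁻¹ := by rw [inv_inv]
    rw [e2, conj_pow, hk]
    group
  have h1 := key v hv hP
  obtain ⟨wj, hwj⟩ := exists_isLongest cs K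
  obtain ⟨kJ, hkJ⟩ := exists_rp cs R.nsys wj
  have hkL : kJ ∈ LJ cs h T X K := rp_mem_LJ R hwj.1 hkJ
  have hl : g * kJ⁻¹ * g⁻¹ ∈ LJ cs h T X J := cj_mem_LJ' R hg hw (inv_mem hkL)
  have h2 : (g * kJ⁻¹ * g⁻¹) * v * (g * kJ⁻¹ * g⁻¹)⁻¹ ∈ VJ cs h X J :=
    (Subgroup.mem_normalizer_iff.1 (LJ_le_normalizer_VJ R J hl) v).1 hv
  have e : g⁻¹ * ((g * kJ⁻¹ * g⁻¹) * v * (g * kJ⁻¹ * g⁻¹)⁻¹) * g = kJ⁻¹ * (g⁻¹ * v * g) * kJ := by group
  have h3 := key _ h2 (by
    rw [e]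
    exact mul_mem (mul_mem (LJ_le_PJ (inv_mem hkL)) hP) (LJ_le_PJ hkL))
  rw [e] at h3
  have h4 := mem_PW_of_conj R hkJ h1 (RGD.U_le_B h3)
  refine RGD.Sup_mono ?_ h4
  rintro x ⟨hx, hx0, hx1⟩
  rcases mem_PosJ_or_NotJ K hx hx0 with h5 | h5
  · exfalso
    rw [hwj.inv_eq] at hx1
    have h6 := rep_longest_nonpos hwj h5
    exact (hx.act wj).not_pos_neg hx1 h6
  · exact h5

omit R in
theorem TwK.mul_T {J K : Set I} {α : ↥(LJ cs h T X J) → ℂ} {β : ↥(LJ cs h T X K) → ℂ} (hβ : IsClassFunction _ β)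
    {g t : Y} (ht : t ∈ T) (hg : TwK cs h T X J K α β g) : TwK cs h T X J K α β (g * t) := by
  intro l hl hl'
  have e : (g * t)⁻¹ * l * (g * t) = t⁻¹ * (g⁻¹ * l * g) * t := by group
  have hl2 : g⁻¹ * l * g ∈ LJ cs h T X K := by
    have : g⁻¹ * l * g = t * ((g * t)⁻¹ * l * (g * t)) * t⁻¹ := by group
    rw [this]
    exact mul_mem (mul_mem (T_le_LJ ht) hl') (inv_mem (T_le_LJ ht))
  rw [hg l hl hl2]
  have h1 := hβ ⟨g⁻¹ * l * g, hl2⟩ (⟨t, T_le_LJ ht⟩ : LJ cs h T X K)⁻¹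
  rw [← h1]
  congr 1
  apply Subtype.ext
  simp only [Subgroup.coe_mul, InvMemClass.coe_inv, inv_inv]
  rw [e]

theorem TwK.congr {J K : Set I} {α : ↥(LJ cs h T X J) → ℂ} {β : ↥(LJ cs h T X K) → ℂ} (hβ : IsClassFunction _ β)
    {w : W} {g g' : Y} (h1 : Rp cs R.nsys w g) (h2 : Rp cs R.nsys w g') (hg : TwK cs h T X J K α β g) :
    TwK cs h T X J K α β g' := by
  have h3 := h1.unique h2
  have e : g' = g * (g⁻¹ * g') := by group
  rw [e]
  exact hg.mul_T hβ h3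

/-- the elements `w` carrying the simple roots of `K` onto those of `J` with `α = β^w` -/
def SK (J K : Set I) (α : ↥(LJ cs h T X J) → ℂ) (β : ↥(LJ cs h T X K) → ℂ) : Set W :=
  {w | Mp cs h J K w ∧ ∃ g, Rp cs R.nsys w g ∧ TwK cs h T X J K α β g}

theorem SK.inv {J K : Set I} {α : ↥(LJ cs h T X J) → ℂ} {β : ↥(LJ cs h T X K) → ℂ} {w : W} (hw : w ∈ SK R J K α β) :
    w⁻¹ ∈ SK R K J β α := by
  obtain ⟨h1, g, hg, h2⟩ := hw
  refine ⟨h1.inv, g⁻¹, hg.inv, ?_⟩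
  intro l hl hl'
  have hm : g * l * g⁻¹ ∈ LJ cs h T X J := cj_mem_LJ' R hg h1 hl
  have hm' : g⁻¹ * (g * l * g⁻¹) * g ∈ LJ cs h T X K := by
    have : g⁻¹ * (g * l * g⁻¹) * g = l := by group
    rwa [this]
  have h3 := h2 _ hm hm'
  have e1 : (⟨g⁻¹⁻¹ * l * g⁻¹, hl'⟩ : LJ cs h T X J) = ⟨g * l * g⁻¹, hm⟩ :=
    Subtype.ext (show g⁻¹⁻¹ * l * g⁻¹ = g * l * g⁻¹ by rw [inv_inv])
  have e2 : (⟨l, hl⟩ : LJ cs h T X K) = ⟨g⁻¹ * (g * l * g⁻¹) * g, hm'⟩ := Subtype.ext (by group)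
  rw [e1, h3, ← e2]

theorem SK.mul {J J' K : Set I} {α : ↥(LJ cs h T X J) → ℂ} {α' : ↥(LJ cs h T X J') → ℂ} {β : ↥(LJ cs h T X K) → ℂ}
    {v w : W} (hv : v ∈ SK R J J' α α') (hw : w ∈ SK R J' K α' β) : v * w ∈ SK R J K α β := by
  obtain ⟨h1, g, hg, h2⟩ := hv
  obtain ⟨h3, k, hk, h4⟩ := hw
  refine ⟨h1.mul h3, g * k, hg.mul hk, ?_⟩
  intro l hl hl'
  have hm : g⁻¹ * l * g ∈ LJ cs h T X J' := cj_mem_LJ R hg h1 hl
  have hm' : k⁻¹ * (g⁻¹ * l * g) * k ∈ LJ cs h T X K := cj_mem_LJ R hk h3 hm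
  rw [h2 l hl hm, h4 _ hm hm']
  congr 1
  apply Subtype.ext
  change _ = (g * k)⁻¹ * l * (g * k)
  group

/-- the values of the inflation at the elements of `P_J ∩ g P_K g⁻¹` -/
theorem infl_eq' [Finite W] [Finite Y] {J K : Set I} {w : W} {g : Y} (hg : Rp cs R.nsys w g) (hw : Mp cs h J K w)
    {α : ↥(LJ cs h T X J) → ℂ} {β : ↥(LJ cs h T X K) → ℂ} (ht : TwK cs h T X J K α β g) {q : Y}
    (hq : q ∈ PJ cs h T X J) (hq' : g⁻¹ * q * g ∈ PJ cs h T X K) :
    (α ∘ projL R J) ⟨q, hq⟩ = (β ∘ projL R K) ⟨g⁻¹ * q * g, hq'⟩ := by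
  obtain ⟨l, hl, v, hv, rfl⟩ := (mem_PJ R).1 hq
  have hl' := cj_mem_LJ R hg hw hl
  have e : g⁻¹ * (l * v) * g = (g⁻¹ * l * g) * (g⁻¹ * v * g) := by group
  have hv' : g⁻¹ * v * g ∈ VJ cs h X K := by
    refine cj_mem_VJ_of R hg hw hv ?_
    have e2 : g⁻¹ * v * g = (g⁻¹ * l * g)⁻¹ * (g⁻¹ * (l * v) * g) := by group
    rw [e2]
    exact mul_mem (inv_mem (LJ_le_PJ hl')) hq'
  have h1 : (⟨l * v, hq⟩ : PJ cs h T X J) = ⟨l, LJ_le_PJ hl⟩ * ⟨v, VJ_le_PJ hv⟩ := rfl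
  have h2 : (⟨g⁻¹ * (l * v) * g, hq'⟩ : PJ cs h T X K) =
      ⟨g⁻¹ * l * g, LJ_le_PJ hl'⟩ * ⟨g⁻¹ * v * g, VJ_le_PJ hv'⟩ := Subtype.ext e
  rw [Function.comp_apply, Function.comp_apply, h1, h2, map_mul, map_mul, projL_L R hl, projL_L R hl', projL_V R hv,
    projL_V R hv', mul_one, mul_one]
  exact ht l hl hl'

/-- **Mackey's formula for cuspidal characters of two Levi subgroups.** -/
theorem classInner_HC_HC [Finite W] [Fintype Y] (hG : GG cs h T X = ⊤) (J K : Set I) {α : ↥(LJ cs h T X J) → ℂ}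
    {β : ↥(LJ cs h T X K) → ℂ} (hα : IsIrrCharacter _ α) (hβ : IsIrrCharacter _ β) (hc : CuspL cs h T X J α)
    (hd : CuspL cs h T X K β) : classInner (HC R J α) (HC R K β) = ((SK R J K α β).ncard : ℂ) := by
  classical
  have : Fintype W := Fintype.ofFinite W
  have : Fintype ↥(PJ cs h T X J) := Fintype.ofFinite _
  have : Fintype ↥(LJ cs h T X J) := Fintype.ofFinite _
  have : Fintype ↥(PJ cs h T X K) := Fintype.ofFinite _
  have : Fintype ↥(LJ cs h T X K) := Fintype.ofFinite _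
  choose r hr using fun w : {w : W // Mp cs h J K w} => exists_rp cs R.nsys (w : W)
  have hαP : IsIrrCharacter _ (α ∘ projL R J) := Core.isIrr_comp _ (projL_surjective R J) hα
  have hβP : IsIrrCharacter _ (β ∘ projL R K) := Core.isIrr_comp _ (projL_surjective R K) hβ
  have hterm : ∀ w, (Fintype.card (ds (PJ cs h T X J) (PJ cs h T X K) (r w)) : ℂ)⁻¹ *
      tw (PJ cs h T X J) (PJ cs h T X K) (α ∘ projL R J) (β ∘ projL R K) (r w) =
        if (w : W) ∈ SK R J K α β then 1 else 0 := by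
    intro w
    split_ifs with hw
    · obtain ⟨-, g, hg, htw⟩ := hw
      have htr := TwK.congr R (Core.isIrr_isClassFunction hβ) hg (hr w) htw
      rw [tw_eq_classInner]
      let f : ↥(LJ cs h T X J) →* ds (PJ cs h T X J) (PJ cs h T X K) (r w) :=
        { toFun := fun l => ⟨⟨l, LJ_le_PJ l.2⟩, (mem_ds _ _ _ _).2 (LJ_le_PJ (cj_mem_LJ R (hr w) w.2 l.2))⟩
          map_one' := rfl
          map_mul' := fun _ _ => rfl }
      have e1 : (β ∘ projL R K) ∘ dh (PJ cs h T X J) (PJ cs h T X K) (r w) =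
          (α ∘ projL R J) ∘ (ds (PJ cs h T X J) (PJ cs h T X K) (r w)).subtype := by
        funext d
        exact (infl_eq' R (hr w) w.2 htr (d : PJ cs h T X J).2 ((mem_ds _ _ _ _).1 d.2)).symm
      rw [e1]
      have hi : IsCharacter _ ((α ∘ projL R J) ∘ (ds (PJ cs h T X J) (PJ cs h T X K) (r w)).subtype) :=
        Core.isCharacter_comp _ (Core.isIrr_isCharacter hαP)
      have h1 : IsIrrCharacter _ (((α ∘ projL R J) ∘ (ds (PJ cs h T X J) (PJ cs h T X K) (r w)).subtype) ∘ f) := by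
        have : (((α ∘ projL R J) ∘ (ds (PJ cs h T X J) (PJ cs h T X K) (r w)).subtype) ∘ f) = α := by
          funext l
          exact congrArg α (projL_L R l.2)
        rw [this]
        exact hα
      exact Core.classInner_irr_self (isIrr_of_comp f hi h1)
    · let c : ↥(LJ cs h T X J) →* ↥(LJ cs h T X K) :=
        { toFun := fun l => ⟨(r w)⁻¹ * l * r w, cj_mem_LJ R (hr w) w.2 l.2⟩
          map_one' := Subtype.ext (by
            change (r w)⁻¹ * 1 * r w = 1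
            group)
          map_mul' := fun a b => Subtype.ext (by
            change (r w)⁻¹ * ((a : Y) * b) * r w = (r w)⁻¹ * a * r w * ((r w)⁻¹ * b * r w)
            group) }
      have hcs : Function.Surjective c := by
        intro l
        refine ⟨⟨r w * l * (r w)⁻¹, cj_mem_LJ' R (hr w) w.2 l.2⟩, Subtype.ext ?_⟩
        change (r w)⁻¹ * (r w * l * (r w)⁻¹) * r w = l
        group
      have hβc : IsIrrCharacter _ (β ∘ c) := Core.isIrr_comp c hcs hβ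
      have hne : α ≠ β ∘ c := by
        intro he
        apply hw
        refine ⟨w.2, r w, hr w, ?_⟩
        intro l hl hl'
        rw [he]
        rfl
      have h4 := Core.classInner_irr_ne hα hβc hne
      rw [tw_eq_zero_of_hom (PJ cs h T X J) (PJ cs h T X K) (Core.isIrr_isCharacter hαP)
        (Core.isIrr_isCharacter hβP) (r w) (LJ cs h T X J).subtype (fun l => LJ_le_PJ l.2)
        (fun l => LJ_le_PJ (cj_mem_LJ R (hr w) w.2 l.2)), mul_zero]
      rw [Core.classInner_def, mul_eq_zero] at h4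
      rcases h4 with h4 | h4
      · exact absurd (inv_eq_zero.1 h4) Core.card_ne_zero_complex
      · rw [← h4]
        refine Finset.sum_congr rfl fun l _ => ?_
        have e1 : (α ∘ projL R J) ⟨(l : Y), LJ_le_PJ l.2⟩ = α l := congrArg α (projL_L R l.2)
        have e2 : (β ∘ projL R K) ⟨(r w)⁻¹ * (l : Y) * r w, LJ_le_PJ (cj_mem_LJ R (hr w) w.2 l.2)⟩ =
            (β ∘ c) l := by
          have := projL_L R (cj_mem_LJ R (hr w) w.2 l.2)
          rw [Function.comp_apply, this]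
          rfl
        exact congrArg₂ (fun a b : ℂ => a * conj b) e1 e2
  have hmain := classInner_ind_eq_sum (PJ cs h T X J) (PJ cs h T X K) (Core.isIrr_isClassFunction hαP)
    (Core.isIrr_isClassFunction hβP) r ?_ ?_
  · unfold HC
    rw [hmain, Finset.sum_congr rfl fun w _ => hterm w, Finset.sum_boole]
    congr 1
    rw [← Set.ncard_coe_finset, ← Set.ncard_image_of_injective _ Subtype.val_injective]
    congr 1
    ext w
    constructor
    · rintro ⟨w', hw', rfl⟩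
      simpa using hw'
    · intro hw
      exact ⟨⟨w, hw.1⟩, by simpa using hw, rfl⟩
  · rintro w w' ⟨a, ha, b, hb, e⟩
    obtain ⟨y₁, hy₁, hc₁⟩ := (mem_PJ_iff_cell R).1 (inv_mem ha)
    obtain ⟨y₂, hy₂, hc₂⟩ := (mem_PJ_iff_cell R).1 hb
    have h1 := Cell.mul_of_length R (mp_length' w'.2 hy₁) hc₁ (cell_of_rp (hr w'))
    have h2 := Cell.mul_of_length R (mp_length w.2 hy₂) (cell_of_rp (hr w)) hc₂
    have e2 : a⁻¹ * r w' = r w * b := by rw [e]; group
    rw [e2] at h1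
    exact Subtype.ext (mp_eq w.2 w'.2 hy₁ hy₂ (Cell.unique R h1 h2))
  · intro x hx
    obtain ⟨a, ha, b, hb, w, g, hg, e, h1, h2⟩ := exists_min R hG J K x
    rcases mp_or h1 h2 with hp | ⟨i, hi, hrad⟩ | ⟨i, hi, hrad⟩
    · exfalso
      have h3 := (hr ⟨w, hp⟩).unique hg
      refine hx ⟨w, hp⟩ ⟨a, ha, ((r ⟨w, hp⟩)⁻¹ * g) * b, mul_mem (LJ_le_PJ (T_le_LJ h3)) hb, ?_⟩
      rw [e]
      group
    · rw [e, tw_mul (PJ cs h T X J) (PJ cs h T X K) (Core.isIrr_isClassFunction hαP) (Core.isIrr_isClassFunction hβP)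
        ha hb]
      have hconj : ∀ l ∈ rad cs h X J i, g⁻¹ * l * g ∈ VJ cs h X K := fun l hl =>
        conj_mem_Sup' R hg (fun x hx => hx.1.1) hrad hl
      have : Fintype (rad cs h X J i) := Fintype.ofFinite _
      refine tw_eq_zero_of_hom (PJ cs h T X J) (PJ cs h T X K) (Core.isIrr_isCharacter hαP)
        (Core.isIrr_isCharacter hβP) g (rad cs h X J i).subtype (fun l => rad_le_PJ J i l.2)
        (fun l => VJ_le_PJ (hconj l l.2)) ?_
      have h3 : ∀ l : rad cs h X J i, (α ∘ projL R J) ⟨(rad cs h X J i).subtype l, rad_le_PJ J i l.2⟩ *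
          conj ((β ∘ projL R K) ⟨g⁻¹ * (rad cs h X J i).subtype l * g, VJ_le_PJ (hconj l l.2)⟩) =
          α ⟨l, rad_le_LJ J i l.2⟩ * conj (β 1) := by
        intro l
        have e1 : projL R J ⟨(rad cs h X J i).subtype l, rad_le_PJ J i l.2⟩ = ⟨l, rad_le_LJ J i l.2⟩ :=
          projL_L R (rad_le_LJ J i l.2)
        have e2 : projL R K ⟨g⁻¹ * (rad cs h X J i).subtype l * g, VJ_le_PJ (hconj l l.2)⟩ = 1 :=
          projL_V R (hconj l l.2)
        rw [Function.comp_apply, Function.comp_apply, e1, e2]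
      rw [Finset.sum_congr rfl fun l _ => h3 l, ← Finset.sum_mul, hc i hi, zero_mul]
    · rw [e, tw_mul (PJ cs h T X J) (PJ cs h T X K) (Core.isIrr_isClassFunction hαP) (Core.isIrr_isClassFunction hβP)
        ha hb]
      have hconj : ∀ l ∈ rad cs h X K i, g * l * g⁻¹ ∈ VJ cs h X J := fun l hl =>
        conj_mem_Sup R hg (fun x hx => hx.1.1) hrad hl
      have : Fintype (rad cs h X K i) := Fintype.ofFinite _
      let f : ↥(rad cs h X K i) →* Y := (MulAut.conj g).toMonoidHom.comp (rad cs h X K i).subtype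
      have hfl : ∀ l, f l = g * l * g⁻¹ := fun l => rfl
      have hfg : ∀ l, g⁻¹ * f l * g = l := fun l => by rw [hfl]; group
      refine tw_eq_zero_of_hom (PJ cs h T X J) (PJ cs h T X K) (Core.isIrr_isCharacter hαP)
        (Core.isIrr_isCharacter hβP) g f (fun l => VJ_le_PJ (hconj l l.2))
        (fun l => by rw [hfg]; exact rad_le_PJ K i l.2) ?_
      have h3 : ∀ (l : rad cs h X K i) (h1 : f l ∈ PJ cs h T X J) (h2 : g⁻¹ * f l * g ∈ PJ cs h T X K),
          (α ∘ projL R J) ⟨f l, h1⟩ * conj ((β ∘ projL R K) ⟨g⁻¹ * f l * g, h2⟩) =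
          α 1 * conj (β ⟨l, rad_le_LJ K i l.2⟩) := by
        intro l h1 h2
        have e1 : projL R J ⟨f l, h1⟩ = 1 := projL_V R (hconj l l.2)
        have e2 : projL R K ⟨g⁻¹ * f l * g, h2⟩ = ⟨l, rad_le_LJ K i l.2⟩ := by
          have e3 : (⟨g⁻¹ * f l * g, h2⟩ : PJ cs h T X K) = ⟨l, LJ_le_PJ (rad_le_LJ K i l.2)⟩ := Subtype.ext (hfg l)
          rw [e3]
          exact projL_L R (rad_le_LJ K i l.2)
        rw [Function.comp_apply, Function.comp_apply, e1, e2]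
      rw [Finset.sum_congr rfl fun l _ => h3 l _ _, ← Finset.mul_sum, ← map_sum, hd i hi, map_zero, mul_zero]

/-- **Non-orthogonal cuspidal series coincide.** -/
theorem HC_eq_of_ne [Finite W] [Fintype Y] (hG : GG cs h T X = ⊤) (J K : Set I) {α : ↥(LJ cs h T X J) → ℂ}
    {β : ↥(LJ cs h T X K) → ℂ} (hα : IsIrrCharacter _ α) (hβ : IsIrrCharacter _ β) (hc : CuspL cs h T X J α)
    (hd : CuspL cs h T X K β) (hne : classInner (HC R J α) (HC R K β) ≠ 0) :
    HC R J α = HC R K β ∧ ∃ w, w ∈ SK R J K α β := by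
  classical
  have h1 := classInner_HC_HC R hG J K hα hβ hc hd
  have h2 := classInner_HC_HC R hG J J hα hα hc hc
  have h3 := classInner_HC_HC R hG K K hβ hβ hd hd
  have h1' := classInner_HC_HC R hG K J hβ hα hd hc
  have hS : (SK R J K α β).Nonempty := by
    rw [Set.nonempty_iff_ne_empty]
    intro h0
    apply hne
    rw [h1, h0, Set.ncard_empty, Nat.cast_zero]
  obtain ⟨w, hw⟩ := hS
  have e1 : (SK R J J α α).ncard = (SK R J K α β).ncard := by
    refine Set.ncard_congr (fun u _ => u * w) (fun u hu => SK.mul R hu hw) (fun u v _ _ he => mul_right_cancel he) ?_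
    intro v hv
    exact ⟨v * w⁻¹, SK.mul R hv (SK.inv R hw), by group⟩
  have e2 : (SK R K K β β).ncard = (SK R J K α β).ncard := by
    refine Set.ncard_congr (fun u _ => w * u) (fun u hu => SK.mul R hw hu) (fun u v _ _ he => mul_left_cancel he) ?_
    intro v hv
    exact ⟨w⁻¹ * v, SK.mul R (SK.inv R hw) hv, by group⟩
  have e3 : (SK R K J β α).ncard = (SK R J K α β).ncard := by
    refine Set.ncard_congr (fun u _ => u⁻¹) (fun u hu => SK.inv R hu) (fun u v _ _ he => inv_injective he) ?_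
    intro v hv
    exact ⟨v⁻¹, SK.inv R hv, by group⟩
  refine ⟨?_, w, hw⟩
  have h4 : classInner (HC R J α + (-1 : ℂ) • HC R K β) (HC R J α + (-1 : ℂ) • HC R K β) = 0 := by
    rw [Core.classInner_add_left, Core.classInner_add_right, Core.classInner_add_right, Core.classInner_smul_left,
      Core.classInner_smul_left, Core.classInner_smul_right, Core.classInner_smul_right, h1, h2, h3, h1', e1, e2, e3,
      map_neg, map_one]
    ring
  have h5 := Core.classInner_self_eq_zero h4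
  funext y
  have h6 := congrFun h5 y
  simp only [Pi.add_apply, Pi.smul_apply, smul_eq_mul, Pi.zero_apply] at h6
  linear_combination h6

end Cfsg.Agent.H45.GG
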